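import Cfsg.Agent.OneMMN.Basic
import Cfsg.Agent.TwoClasses.Basic

/-!
If all noncentral classes have size `n`, the elements of order prime to `n` are central.
-/

set_option autoImplicit false

namespace CfsgLib.OneMMN

theorem pElt_central_of_two_sizes {H : Type*} [Group H] [Finite H] {n p : ℕ} (hp : p.Prime) (hpn : ¬ p ∣ n)
    (h : ∀ x : H, (C x).index = 1 ∨ (C x).index = n) {u : H} (hu : PElt p u) : u ∈ Subgroup.center H := by
  haveI := Fact.mk hp
  by_contra huc
  have hidx : ∀ {x : H}, x ∉ Subgroup.center H → (C x).index = n := fun {x} hx =>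
    (h x).resolve_left fun e => hx (idx_eq_one_iff.1 e)
  have hn : n ≠ 1 := fun e => huc (idx_eq_one_iff.1 ((hidx huc).trans e))
  have hle : ∀ {x y : H}, x ∉ Subgroup.center H → y ∉ Subgroup.center H → C x ≤ C y → C x = C y :=
    fun hx hy hl => eq_of_le_of_index hl ((hidx hx).trans (hidx hy).symm)
  -- elements of order prime to `p` centralizing a noncentral `p`-element are central in its centralizer
  have hprime : ∀ {a z : H}, a ∉ Subgroup.center H → PElt p a → z ∈ C a → ¬ p ∣ orderOf z → C a ≤ C z := by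
    intro a z ha hap hz hzp
    have e := C_mul (mem_C.1 hz).symm (hap.coprime hp hzp)
    have hna : a * z ∉ Subgroup.center H := fun hc => ha <| by
      rw [mem_center_iff_C, eq_top_iff, ← mem_center_iff_C.1 hc, e]
      exact inf_le_left
    rw [← hle hna ha (e.le.trans inf_le_left), e]
    exact inf_le_right
  -- every element centralizes a Sylow `p`-subgroup
  have hsyl : ∀ x : H, ∃ P : Sylow p H, (P : Subgroup H) ≤ C x := by
    intro x
    obtain ⟨Q⟩ := (inferInstance : Nonempty (Sylow p (C x)))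
    have hd : ¬ p ∣ (C x).index := by
      rcases h x with e | e <;> rw [e]
      exacts [hp.not_dvd_one, hpn]
    have hcard : ¬ p ∣ ((Q : Subgroup (C x)).map (C x).subtype).index := by
      rw [Subgroup.index_map_subtype]
      exact fun hh => (hp.dvd_mul.1 hh).elim Q.not_dvd_index hd
    exact ⟨(Q.isPGroup'.map (C x).subtype).toSylow hcard, Subgroup.map_subtype_le _⟩
  -- a noncentral element of order prime to `p` commuting with a noncentral `p`-element
  obtain ⟨q, hq, hqn⟩ := Nat.exists_prime_and_dvd hn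
  have hqp : q ≠ p := fun e => hpn (e ▸ hqn)
  haveI := Fact.mk hq
  obtain ⟨Q⟩ := (inferInstance : Nonempty (Sylow q H))
  obtain ⟨v, hvQ, hvc⟩ : ∃ v ∈ (Q : Subgroup H), v ∉ Subgroup.center H := by
    by_contra hno
    push Not at hno
    have := Subgroup.index_dvd_of_le (le_trans (fun v hv => hno v hv) (center_le_C u) : (Q : Subgroup H) ≤ C u)
    rw [hidx huc] at this
    exact Q.not_dvd_index (hqn.trans this)
  have hvp : ¬ p ∣ orderOf v := PElt.not_dvd hp hq hqp (PElt.of_mem hq Q.isPGroup' hvQ)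
  obtain ⟨P, hP⟩ := hsyl v
  obtain ⟨g, hg⟩ := exists_conj_mem_sylow P hu.isPGroup_zpowers
  set u' := g * u * g⁻¹
  have hu' : u' ∉ Subgroup.center H := mt conj_mem_center.1 huc
  have hvu' : v ∈ C u' := mem_C_comm.1 (hP (hg u (Subgroup.mem_zpowers u)))
  have hCv : C u' = C v := hle hu' hvc (hprime hu' (hu.conj g) hvu' hvp)
  -- this centralizer is abelian
  have hab : ∀ y ∈ C u', C u' ≤ C y := by
    intro y hy
    obtain ⟨a, b, rfl, -, ha, hb, haz, hbz⟩ := split hp y
    have hsub : ∀ {z : H}, z ∈ Subgroup.zpowers (a * b) → z ∈ C u' := fun hz => Subgroup.zpowers_le.2 hy hz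
    have h1 : C u' ≤ C b := hprime hu' (hu.conj g) (hsub hbz) hb
    have h2 : C u' ≤ C a := by
      by_cases hac : a ∈ Subgroup.center H
      · rw [mem_center_iff_C.1 hac]; exact le_top
      · have hva : v ∈ C a := mem_C_comm.1 (hCv ▸ hsub haz)
        rw [← hle hac hvc (hprime hac ha hva hvp)] at hCv
        exact hCv.le
    exact fun w hw => mem_C.2 ((show Commute w a from mem_C.1 (h2 hw)).mul_right
      (mem_C.1 (h1 hw))).eq
  -- it covers the group
  obtain ⟨P0, hP0⟩ := hsyl u'
  have htop : C u' = ⊤ := by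
    refine TwoClasses.eq_top_of_conj_cover _ fun x => ?_
    by_cases hxc : x ∈ Subgroup.center H
    · exact ⟨1, by simpa using center_le_C u' hxc⟩
    obtain ⟨P1, hP1⟩ := hsyl x
    obtain ⟨t, rfl⟩ := MulAction.exists_smul_eq H P0 P1
    obtain ⟨s, hs, hsc⟩ : ∃ s ∈ (P0 : Subgroup H), s ∉ Subgroup.center H := by
      obtain ⟨k, hk⟩ := exists_conj_mem_sylow P0 hu.isPGroup_zpowers
      exact ⟨_, hk u (Subgroup.mem_zpowers u), mt conj_mem_center.1 huc⟩
    have hCs : C u' = C s := hle hu' hsc (hab s (hP0 hs))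
    refine ⟨t, ?_⟩
    rw [hCs]
    have h3 : t * s * t⁻¹ ∈ C x := hP1 <| by
      rw [Sylow.coe_subgroup_smul]
      exact Subgroup.smul_mem_pointwise_smul s (MulAut.conj t) _ hs
    exact mem_C_conj.1 (mem_C_comm.1 h3)
  exact hu' (mem_center_iff_C.2 htop)

end CfsgLib.OneMMN
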